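import Mathlib
import Cfsg.Agent.Base
import Cfsg.Agent.Lib.FGS.KTwo
import Cfsg.Agent.Lib.Ruc.Amb
import Cfsg.Agent.Lib.H81.Yoshida

/-!
Groups in which the number of classes of `2`-elements is half the order of a Sylow `2`-subgroup:
the counting argument.
-/

set_option autoImplicit false
set_option linter.style.haveILetI false

namespace H91.KH

open Subgroup Cfsg H69 H77
open scoped commutatorElement

variable {G : Type*} [Group G] [Finite G]

theorem two_mul_classes_ne (h : ¬ 3 ∣ Nat.card G) :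
    2 * Nat.card (ConjClasses G) ≠ Nat.card G := fun e => by
  classical
  have := Fintype.ofFinite G
  let f : Function.End {p : G × G // Commute p.1 p.2} := fun p =>
    ⟨(p.1.2, (p.1.1 * p.1.2)⁻¹), (p.2.symm.mul_right (Commute.refl _)).inv_right⟩
  have h1 : f ^ 3 ^ 1 = 1 := by
    funext p
    refine Subtype.ext (Prod.ext ?_ ?_)
    · change (p.1.2 * (p.1.1 * p.1.2)⁻¹)⁻¹ = p.1.1
      group
    · change ((p.1.1 * p.1.2)⁻¹ * (p.1.2 * (p.1.1 * p.1.2)⁻¹)⁻¹)⁻¹ = p.1.2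
      group
  have := Fact.mk Nat.prime_three
  have h2 := Equiv.Perm.card_fixedPoints_modEq h1
  have h3 : Fintype.card f.fixedPoints = 1 := by
    refine Fintype.card_eq_one_iff.2 ⟨⟨⟨(1, 1), Commute.refl _⟩, Subtype.ext (by simp [f])⟩, ?_⟩
    rintro ⟨⟨⟨x, y⟩, hc⟩, hp⟩
    obtain ⟨rfl, k⟩ : y = x ∧ (x * y)⁻¹ = y := Prod.ext_iff.1 (congrArg Subtype.val hp)
    obtain rfl : y = 1 := by
      by_contra hne
      exact h (orderOf_eq_prime (p := 3)
        (by rw [pow_succ, pow_two, ← inv_eq_iff_mul_eq_one, k]) hne ▸ orderOf_dvd_natCard y)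
    rfl
  rw [h3, ← Nat.card_eq_fintype_card, card_comm_eq_card_conjClasses_mul_card, ← e] at h2
  generalize Nat.card (ConjClasses G) = k at h2
  have : k % 3 = 0 ∨ k % 3 = 1 ∨ k % 3 = 2 := by omega
  rcases this with k1 | k1 | k1 <;> simp [Nat.ModEq, Nat.mul_mod, k1] at h2

/-- a centric subgroup with a non-trivial automorphism of odd order -/
theorem exists_centric (h : ¬ HasNormalPComplement 2 G) : ∃ (P : Sylow 2 G) (E : Subgroup G) (x : G),
    E ≤ P ∧ (P : Subgroup G) ⊓ 𝐂(E) ≤ E ∧ x ∈ 𝐍(E) ∧ Odd (orderOf x) ∧ x ∉ 𝐂(E) := by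
  rw [H4.hasNormalPComplement_iff_forall_isPGroup] at h
  push Not at h
  obtain ⟨X, hX, g, hg, ho, hc⟩ := h
  have h1 : X ≤ 𝐍(𝐂(X)) := le_normalizer_centralizer le_normalizer
  obtain ⟨T, hT, hXT⟩ := exists_isSylowIn_le hX (le_sup_right : X ≤ 𝐂(X) ⊔ X)
  obtain ⟨P, hP⟩ := hT.isP.exists_le_sylow
  have h2 : 𝐍(X) ≤ 𝐍(𝐂(X) ⊔ X) := le_normalizer_sup (normalizer_le_normalizer_centralizer X) le_rfl
  obtain ⟨n, hn, a, ha, e⟩ := hT.frattini (h2 hg)
  obtain ⟨k, hk⟩ := H4.exists_pow_coprime_orderOf (isOfFinOrder_of_finite a) 2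
  refine ⟨P, T, a ^ 2 ^ k, hP, fun y hy => ?_, pow_mem ha _, Nat.coprime_two_right.1 hk,
    fun h3 => hc ?_⟩
  · exact hT.le_of_le_normalizer' (P.isPGroup'.to_le (zpowers_le.2 hy.1))
      (zpowers_le.2 (mem_sup_left (centralizer_anti hXT hy.2)))
      (zpowers_le.2 (centralizer_le_normalizer _ hy.2)) (mem_zpowers y)
  have h4 : 𝐂(X) ⊔ X ≤ 𝐍(X) := sup_le (centralizer_le_normalizer _) le_normalizer
  have := normal_subgroupOf_of_le_normalizer h2
  have h5 : a ∈ 𝐍(X) := (mul_mem_cancel_left (h4 hn)).1 (e ▸ hg)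
  have h6 : ((⟨g, hg⟩ : 𝐍(X)) : 𝐍(X) ⧸ (𝐂(X) ⊔ X).subgroupOf 𝐍(X)) = (⟨a, h5⟩ : 𝐍(X)) := by
    rw [eq_comm, QuotientGroup.eq, mem_subgroupOf]
    simpa [e, mul_assoc] using conj_mem_of_mem_normalizer' (h2 h5) hn
  have h7 : (⟨g, hg⟩ : 𝐍(X)) ^ 2 ^ k ∈ (𝐂(X) ⊔ X).subgroupOf 𝐍(X) := by
    rw [← QuotientGroup.eq_one_iff, QuotientGroup.mk_pow, h6, ← QuotientGroup.mk_pow,
      QuotientGroup.eq_one_iff]
    exact mem_sup_left (centralizer_anti hXT h3)
  exact res_sup_le hX h1 (mem_res (H4.mem_of_pow_mem_of_coprime h7 (ho.pow_right k)) ho)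

section
variable {P : Sylow 2 G} {E : Subgroup G} {x : G}

theorem four_mul_le (hE : IsPGroup 2 E) (hn : x ∈ 𝐍(E)) (ho : Odd (orderOf x)) (hc : x ∉ 𝐂(E)) :
    4 * Nat.card (E ⊓ 𝐂(zpowers x) : Subgroup G) ≤ Nat.card E := by
  have h1 : E ⊓ 𝐂(zpowers x) < E :=
    inf_lt_left.2 fun h => hc (le_centralizer_iff.1 h (mem_zpowers x))
  obtain ⟨M, h2, h3, h4, -⟩ := H81.exists_index_p_between hE h1
  have h5 := H1.card_mul_relIndex_of_le h3
  have h6 := mul_card_le_of_lt (hE.to_le h3) (h2.lt_of_ne fun e => hc ?_)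
  · rw [h4] at h5; omega
  rw [← e] at h4
  have h7 : zpowers x ≤ 𝐂(E ⊓ 𝐂(zpowers x)) := le_centralizer_iff.1 inf_le_right
  exact H2.le_centralizer_of_commutator_le (Ru.coprime_of_odd (hE.to_le inf_le_left) ho)
    (Ru.commutator_le_of_relIndex_two (h7.trans (centralizer_le_normalizer _)) (zpowers_le.2 hn) h4)
    h7 (mem_zpowers x)

theorem four_mul_le' (hE : IsPGroup 2 E) (hc : ¬ E ≤ 𝐂(E)) :
    4 * Nat.card (E ⊓ 𝐂(E) : Subgroup G) ≤ Nat.card E := by
  obtain ⟨y, hy, hy'⟩ := SetLike.not_le_iff_exists.1 hc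
  have h1 : E ⊓ 𝐂(zpowers y) < E :=
    inf_lt_left.2 fun h => hy' (le_centralizer_iff.1 h (mem_zpowers y))
  have h2 : E ⊓ 𝐂(E) < E ⊓ 𝐂(zpowers y) := by
    refine (inf_le_inf_left _ (centralizer_anti (zpowers_le.2 hy))).lt_of_ne fun e => hy' ?_
    refine (e.ge ⟨hy, ?_⟩).2
    rw [centralizer_zpowers]
    exact mem_centralizer_singleton_iff.2 rfl
  have h3 := mul_card_le_of_lt hE h1
  have h4 := mul_card_le_of_lt (hE.to_le inf_le_left) h2
  omega

theorem fuseCard_mono {A B : Set G} (h : A ⊆ B) (y : G) : fuseCard A y ≤ fuseCard B y :=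
  Set.ncard_le_ncard (fun _ hz => ⟨h hz.1, hz.2⟩) (Set.toFinite _)

theorem three_le (hn : x ∈ 𝐍(E)) (ho : Odd (orderOf x)) {y : G} (hc : y ∉ 𝐂(zpowers x)) :
    3 ≤ (centralizer {y}).relIndex 𝐍(E) := by
  have h0 : (centralizer {y}).relIndex 𝐍(E) ≠ 0 := FiniteIndex.index_ne_zero
  have k : x ∉ centralizer {y} := fun h => hc (by
    rw [centralizer_zpowers]
    exact mem_centralizer_singleton_iff.2 (mem_centralizer_singleton_iff.1 h).symm)
  have h1 : (centralizer {y}).relIndex 𝐍(E) ≠ 1 := fun e => k (relIndex_eq_one.1 e hn)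
  have h2 : (centralizer {y}).relIndex 𝐍(E) ≠ 2 := fun e => k
    (H4.mem_of_pow_mem_of_coprime (m := 2) (by
      rw [pow_two]; exact Ru.mul_mem_of_relIndex_two e hn hn k k) ho.coprime_two_right)
  omega

theorem two_dvd (hE : IsPGroup 2 E) {y : G} (hc : y ∉ 𝐂(E)) :
    2 ∣ (centralizer {y}).relIndex 𝐍(E) := by
  have := normal_subgroupOf_of_le_normalizer (le_refl 𝐍(E))
  refine Dvd.dvd.trans ?_ (H4.relIndex_dvd_index_of_normal_right _ (E.subgroupOf 𝐍(E)))
  rw [relIndex_subgroupOf le_normalizer]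
  obtain ⟨k, hk⟩ := hE.index ((centralizer {y}).subgroupOf E)
  rw [relIndex, hk]
  refine dvd_pow_self 2 fun e => hc fun z hz => ?_
  rw [e, pow_zero] at hk
  exact mem_centralizer_singleton_iff.1 (relIndex_eq_one.1 hk hz)

theorem two_le (hE : E ≤ P) {y : G} (hy : y ∈ (P : Subgroup G)) (hc : y ∉ 𝐂(E)) :
    2 ≤ fuseCard ((P : Subgroup G) : Set G) y :=
  two_le_fuseCard P hy fun h => hc fun _ hz => isolated_comm P hy h.2 (hE hz)

open Classical in
theorem eq_of_weight (hk : 2 * kQ G (fun x => ∃ k, orderOf x = 2 ^ k) = Nat.card (P : Subgroup G))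
    {A B C : Subgroup G} (hA : A ≤ P) (hB : B ≤ P) (hC : C ≤ P) {a b c : ℚ}
    (h1 : a * Nat.card A + b * Nat.card B + c * Nat.card C ≤ 0)
    (h2 : ∀ y ∈ (P : Subgroup G), 1 / (fuseCard ((P : Subgroup G) : Set G) y : ℚ) ≤
      1 / 2 + (if y ∈ A then a else 0) + (if y ∈ B then b else 0) + if y ∈ C then c else 0) :
    a * Nat.card A + b * Nat.card B + c * Nat.card C = 0 ∧
      ∀ y ∈ (P : Subgroup G), 1 / (fuseCard ((P : Subgroup G) : Set G) y : ℚ) =
      1 / 2 + (if y ∈ A then a else 0) + (if y ∈ B then b else 0) + if y ∈ C then c else 0 := by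
  have := Fintype.ofFinite G
  have k : ∀ D : Subgroup G, D ≤ P → ∀ d : ℚ, ∑ y ∈ Finset.univ.filter (· ∈ (P : Subgroup G)),
      (if y ∈ D then d else 0) = d * Nat.card D := fun D hD d => by
    rw [← Finset.sum_filter, Finset.sum_const, Finset.filter_filter, ← card_filter_mem, nsmul_eq_mul,
      mul_comm]
    congr 3
    ext y
    simpa using fun h => hD h
  have h3 := kP_eq_sum P
  have h4 : (2 : ℚ) * kQ G (fun x => ∃ k, orderOf x = 2 ^ k) = Nat.card (P : Subgroup G) := by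
    exact_mod_cast hk
  have h5 := Finset.sum_le_sum (s := Finset.univ.filter (· ∈ (P : Subgroup G)))
    fun y hy => h2 y (Finset.mem_filter.1 hy).2
  have h6 := (Finset.sum_eq_sum_iff_of_le (s := Finset.univ.filter (· ∈ (P : Subgroup G)))
    fun y hy => h2 y (Finset.mem_filter.1 hy).2).1
  simp only [Finset.sum_add_distrib, k A hA, k B hB, k C hC, Finset.sum_const, card_filter_mem,
    nsmul_eq_mul, ← h3] at h5 h6
  exact ⟨by linarith, fun y hy => h6 (by linarith) y (Finset.mem_filter.2 ⟨Finset.mem_univ _, hy⟩)⟩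

theorem inv_le {m n : ℕ} (hn : 0 < n) (h : n ≤ m) : 1 / (m : ℚ) ≤ 1 / n :=
  one_div_le_one_div_of_le (by exact_mod_cast hn) (by exact_mod_cast h)

variable (hk : 2 * kQ G (fun x => ∃ k, orderOf x = 2 ^ k) = Nat.card (P : Subgroup G))
  (hE : E ≤ P) (hC : (P : Subgroup G) ⊓ 𝐂(E) ≤ E) (hn : x ∈ 𝐍(E)) (ho : Odd (orderOf x))
  (hc : x ∉ 𝐂(E))
include hk hE hC hn ho hc

theorem abelian : E ≤ 𝐂(E) := by
  classical
  by_contra h
  have hp := P.isPGroup'.to_le hE
  have h1 : (4 : ℚ) * Nat.card (E ⊓ 𝐂(zpowers x) : Subgroup G) ≤ Nat.card E := by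
    exact_mod_cast four_mul_le hp hn ho hc
  have h2 : (4 : ℚ) * Nat.card (E ⊓ 𝐂(E) : Subgroup G) ≤ Nat.card E := by
    exact_mod_cast four_mul_le' hp h
  have := (eq_of_weight hk hE (B := E ⊓ 𝐂(E)) (C := E ⊓ 𝐂(zpowers x)) (inf_le_left.trans hE)
    (inf_le_left.trans hE) (a := -1 / 4) (b := 3 / 4) (c := 1 / 4) (by linarith)
    fun y hy => ?_).2 1 (one_mem _)
  · have h3 := inv_le one_pos (fuseCard_pos (S := ((P : Subgroup G) : Set G)) (one_mem _))
    simp only [one_mem, if_true] at this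
    norm_num at this h3
    linarith
  have h3 := inv_le one_pos (fuseCard_pos (S := ((P : Subgroup G) : Set G)) hy)
  by_cases h4 : y ∈ E
  · by_cases h5 : y ∈ 𝐂(E)
    · rw [if_pos h4, if_pos ⟨h4, h5⟩]
      split_ifs <;> norm_num at h3 ⊢ <;> linarith
    rw [if_pos h4, if_neg fun k => h5 k.2]
    split_ifs with h6
    · exact (inv_le two_pos (two_le hE hy h5)).trans (by norm_num)
    · have h7 := three_le hn ho fun k => h6 ⟨h4, k⟩
      have h8 := two_dvd hp h5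
      exact (inv_le four_pos (le_trans (by omega) ((relIndex_le_fuseCard le_rfl h4
        (le_normalizer h4)).trans (fuseCard_mono hE y)))).trans (by norm_num)
  · rw [if_neg h4, if_neg fun k => h4 k.1, if_neg fun k => h4 k.1]
    exact (inv_le two_pos (two_le hE hy fun k => h4 (hC ⟨hy, k⟩))).trans (by norm_num)

theorem count : Nat.card E = 4 * Nat.card (E ⊓ 𝐂(zpowers x) : Subgroup G) ∧
    E ⊓ 𝐂(zpowers x) ≤ isol P ∧ ∀ y ∈ E, y ∉ E ⊓ 𝐂(zpowers x) →
      fuseCard ((P : Subgroup G) : Set G) y = 3 ∧ ∀ z ∈ (P : Subgroup G), IsConj y z → z ∈ E := by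
  classical
  have hp := P.isPGroup'.to_le hE
  have h1 : (4 : ℚ) * Nat.card (E ⊓ 𝐂(zpowers x) : Subgroup G) ≤ Nat.card E := by
    exact_mod_cast four_mul_le hp hn ho hc
  have h0 : ∀ y ∈ E, y ∉ E ⊓ 𝐂(zpowers x) → 3 ≤ fuseCard (E : Set G) y := fun y h4 h6 =>
    (three_le hn ho fun k => h6 ⟨h4, k⟩).trans (relIndex_le_fuseCard le_rfl h4 (le_normalizer h4))
  obtain ⟨h2, h3⟩ := eq_of_weight hk hE (B := E) (C := E ⊓ 𝐂(zpowers x)) hE
    (inf_le_left.trans hE) (a := -1 / 6) (b := 0) (c := 2 / 3) (by linarith) fun y hy => by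
      by_cases h4 : y ∈ E
      · rw [if_pos h4, if_pos h4]
        split_ifs with h6
        · exact (inv_le one_pos (fuseCard_pos (S := ((P : Subgroup G) : Set G)) hy)).trans
            (by norm_num)
        · exact (inv_le three_pos ((h0 y h4 h6).trans (fuseCard_mono hE y))).trans (by norm_num)
      · rw [if_neg h4, if_neg h4, if_neg fun k => h4 k.1]
        exact (inv_le two_pos (two_le hE hy fun k => h4 (hC ⟨hy, k⟩))).trans (by norm_num)
  have h5 : E ⊓ 𝐂(zpowers x) ≤ isol P := fun y hy => by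
    by_contra h6
    have h7 := inv_le two_pos (two_le_fuseCard P (hE hy.1) h6)
    rw [h3 y (hE hy.1), if_pos (mem_inf.1 hy).1, if_pos (mem_inf.1 hy).1, if_pos hy] at h7
    norm_num at h7
  refine ⟨Nat.cast_injective (R := ℚ) (by rw [Nat.cast_mul, Nat.cast_ofNat]; linarith), h5,
    fun y hy h6 => ?_⟩
  have h7 := h3 y (hE hy)
  rw [if_pos hy, if_pos hy, if_neg h6] at h7
  have h8 : fuseCard ((P : Subgroup G) : Set G) y = 3 := by
    exact_mod_cast (inv_injective (by rw [← one_div, h7]; norm_num) :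
      (fuseCard ((P : Subgroup G) : Set G) y : ℚ) = 3)
  have h9 : {z | z ∈ (E : Set G) ∧ IsConj y z} = {z | z ∈ ((P : Subgroup G) : Set G) ∧ IsConj y z} :=
    Set.eq_of_subset_of_ncard_le (fun _ hz => ⟨hE hz.1, hz.2⟩) (h8.le.trans (h0 y hy h6))
      (Set.toFinite _)
  exact ⟨h8, fun z hz e => (h9.ge ⟨hz, e⟩).1⟩

end

end H91.KH
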